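import Mathlib

set_option autoImplicit false

namespace Cfsg.Agent.Helper23.S4172a

theorem top_of_prime_index {S : Type*} [Group S] [Finite S] {p : ℕ} (hp : p.Prime)
    (M L : Subgroup S) (hML : M ≤ L) (hM : M.index = p) (hne : ¬ L ≤ M) : L = ⊤ := by
  have h1 := Subgroup.relIndex_mul_index hML
  rw [hM] at h1
  have h2 : L.index ∣ p := Dvd.intro_left _ h1
  rcases (Nat.dvd_prime hp).mp h2 with h | h
  · exact Subgroup.index_eq_one.mp h
  · exfalso
    rw [h] at h1
    have h3 : M.relIndex L = 1 := by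
      have hp0 : 0 < p := hp.pos
      exact Nat.eq_of_mul_eq_mul_right hp0 (by rw [h1, one_mul])
    exact hne (Subgroup.relIndex_eq_one.mp h3)

theorem two_gen {G : Type*} [Group G] [Finite G] (p : ℕ) [Fact p.Prime] (P : Sylow p G) (hgen : (frattini ↥(P : Subgroup G)).index = p ^ 2) (X : Subgroup G) (hXn : (P : Subgroup G) ≤ Subgroup.normalizer (X : Set G)) (hX : ¬ (X ⊓ (P : Subgroup G) ≤ (frattini ↥(P : Subgroup G)).map (P : Subgroup G).subtype)) : ∃ g ∈ (P : Subgroup G), ∀ y ∈ (P : Subgroup G), ∃ n ∈ X, ∃ i : ℤ, y = n * g ^ i := by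
  have hp : p.Prime := Fact.out
  obtain ⟨x, hx, hxΦ⟩ := SetLike.not_le_iff_exists.mp hX
  have hxX : x ∈ X := hx.1
  have hxP : x ∈ (P : Subgroup G) := hx.2
  haveI hNn : (X.subgroupOf (P : Subgroup G)).Normal := by
    constructor
    intro n hn g
    rw [Subgroup.mem_subgroupOf] at hn ⊢
    have hg : (g : G) ∈ Subgroup.normalizer (X : Set G) := hXn g.2
    have := (Subgroup.mem_normalizer_iff.mp hg (n : G)).mp hn
    simpa using this
  have hx'N : (⟨x, hxP⟩ : ↥(P : Subgroup G)) ∈ X.subgroupOf (P : Subgroup G) := by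
    rw [Subgroup.mem_subgroupOf]; exact hxX
  have hx'Φ : (⟨x, hxP⟩ : ↥(P : Subgroup G)) ∉ frattini ↥(P : Subgroup G) := by
    intro h
    exact hxΦ (Subgroup.mem_map.mpr ⟨⟨x, hxP⟩, h, rfl⟩)
  have key : ∃ g' : ↥(P : Subgroup G),
      (X.subgroupOf (P : Subgroup G) ⊔ Subgroup.zpowers g') ⊔ frattini ↥(P : Subgroup G) = ⊤ := by
    by_cases hM : X.subgroupOf (P : Subgroup G) ⊔ frattini ↥(P : Subgroup G) = ⊤
    · refine ⟨1, ?_⟩
      rw [Subgroup.zpowers_one_eq_bot, sup_bot_eq]; exact hM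
    · have hΦM : frattini ↥(P : Subgroup G) ≤
          X.subgroupOf (P : Subgroup G) ⊔ frattini ↥(P : Subgroup G) := le_sup_right
      have hdvd : (X.subgroupOf (P : Subgroup G) ⊔ frattini ↥(P : Subgroup G)).index ∣ p ^ 2 := by
        rw [← hgen]; exact Subgroup.index_dvd_of_le hΦM
      obtain ⟨k, hk2, hk⟩ := (Nat.dvd_prime_pow hp).mp hdvd
      have hk0 : k ≠ 0 := by
        rintro rfl
        rw [pow_zero] at hk
        exact hM (Subgroup.index_eq_one.mp hk)
      have hkne2 : k ≠ 2 := by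
        rintro rfl
        have h1 := Subgroup.relIndex_mul_index hΦM
        rw [hk, hgen] at h1
        have h3 : (frattini ↥(P : Subgroup G)).relIndex
            (X.subgroupOf (P : Subgroup G) ⊔ frattini ↥(P : Subgroup G)) = 1 := by
          have hpos : 0 < p ^ 2 := pow_pos hp.pos 2
          exact Nat.eq_of_mul_eq_mul_right hpos (by rw [h1, one_mul])
        have hle := Subgroup.relIndex_eq_one.mp h3
        exact hx'Φ (hle (Subgroup.mem_sup_left hx'N))
      have hk1 : k = 1 := by omega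
      rw [hk1, pow_one] at hk
      obtain ⟨g', -, hg'⟩ := SetLike.exists_of_lt (lt_top_iff_ne_top.mpr hM)
      refine ⟨g', ?_⟩
      have hML : X.subgroupOf (P : Subgroup G) ⊔ frattini ↥(P : Subgroup G) ≤
          (X.subgroupOf (P : Subgroup G) ⊔ Subgroup.zpowers g') ⊔ frattini ↥(P : Subgroup G) :=
        sup_le (le_sup_of_le_left le_sup_left) le_sup_right
      apply top_of_prime_index hp _ _ hML hk
      intro hle
      exact hg' (hle (Subgroup.mem_sup_left (Subgroup.mem_sup_right (Subgroup.mem_zpowers g'))))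
  obtain ⟨g', hg'⟩ := key
  have htop : X.subgroupOf (P : Subgroup G) ⊔ Subgroup.zpowers g' = ⊤ := frattini_nongenerating hg'
  refine ⟨(g' : G), g'.2, ?_⟩
  intro y hy
  have hy' : (⟨y, hy⟩ : ↥(P : Subgroup G)) ∈
      ((X.subgroupOf (P : Subgroup G) ⊔ Subgroup.zpowers g' : Subgroup ↥(P : Subgroup G)) :
        Set ↥(P : Subgroup G)) := by
    rw [htop]; exact Subgroup.mem_top _
  rw [Subgroup.normal_mul] at hy'
  obtain ⟨n, hn, h, hh, hnh⟩ := Set.mem_mul.mp hy'
  obtain ⟨i, rfl⟩ := Subgroup.mem_zpowers_iff.mp hh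
  refine ⟨(n : G), ?_, i, ?_⟩
  · exact Subgroup.mem_subgroupOf.mp hn
  · have := congrArg (Subtype.val) hnh
    simpa using this.symm

end Cfsg.Agent.Helper23.S4172a
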